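import Mathlib
import Cfsg.Agent.Lib.Base.Main

/-!
Colourings and vectors whose stabilizers have bounded derived length modulo the kernel.
-/

set_option autoImplicit false

namespace CfsgLib.DL9

open Subgroup CfsgLib.Base
open scoped Pointwise commutatorElement

universe u

section D

variable {G G' : Type*} [Group G] [Group G']

/-- The derived series of a subgroup. -/
def D : ℕ → Subgroup G → Subgroup G
  | 0, S => S
  | k + 1, S => ⁅D k S, D k S⁆

theorem D_mono {S T : Subgroup G} (h : S ≤ T) (k : ℕ) : D k S ≤ D k T := by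
  induction k with
  | zero => exact h
  | succ k ih => exact commutator_mono ih ih

theorem D_add (a b : ℕ) (S : Subgroup G) : D (a + b) S = D b (D a S) := by
  induction b with
  | zero => rfl
  | succ b ih => rw [← add_assoc, D, D, ih]

theorem D_le (k : ℕ) (S : Subgroup G) : D k S ≤ S := by
  induction k with
  | zero => exact le_rfl
  | succ k ih => exact (commutator_mono ih ih).trans (commutator_le_self S)

theorem D_anti {a b : ℕ} (h : a ≤ b) (S : Subgroup G) : D b S ≤ D a S := by
  obtain ⟨c, rfl⟩ := Nat.exists_eq_add_of_le h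
  rw [D_add]
  exact D_le _ _

theorem map_D (f : G →* G') (k : ℕ) (S : Subgroup G) : (D k S).map f = D k (S.map f) := by
  induction k with
  | zero => rfl
  | succ k ih => rw [D, D, map_commutator, ih]

theorem D_eq (k : ℕ) (S : Subgroup G) : D k S = (derivedSeries S k).map S.subtype := by
  induction k with
  | zero => rw [derivedSeries_zero, ← MonoidHom.range_eq_map, range_subtype]; rfl
  | succ k ih => rw [D, derivedSeries_succ, map_commutator, ← ih]

instance (k : ℕ) (S : Subgroup G) [S.Normal] : (D k S).Normal := by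
  induction k with
  | zero => assumption
  | succ k ih => rw [D]; infer_instance

theorem mem_D_map (f : G →* G') {k : ℕ} {S : Subgroup G} {T : Subgroup G'}
    (h : ∀ s ∈ S, f s ∈ T) {x : G} (hx : x ∈ D k S) : f x ∈ D k T :=
  D_mono (map_le_iff_le_comap.2 h) k (map_D f k S ▸ mem_map_of_mem f hx)

theorem exists_of_mem_D {L S : Subgroup G} {k : ℕ} {T : Subgroup L}
    (h : ∀ s ∈ S, ∃ l ∈ T, (l : G) = s) {x : G} (hx : x ∈ D k S) : ∃ l ∈ D k T, (l : G) = x := by
  have := D_mono (T := T.map L.subtype) h k hx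
  rwa [← map_D] at this

end D

/-- A colouring of `G ⧸ H` whose stabilizer has derived length at most `k` modulo the kernel. -/
def DistK (k : ℕ) (C : Type*) {G : Type*} [Group G] (H : Subgroup G) : Prop :=
  ∃ f : Col (G ⧸ H) C, D k (MulAction.stabilizer G f) ≤ H.normalCore

/-- Pairwise inequivalent points whose stabilizers have derived length at most `k` modulo `N`. -/
def ManyK (k : ℕ) (C : Type*) {L : Type*} [Group L] (T : Type*) [MulAction L T] (N : Subgroup L) :
    Prop :=
  ∃ τ : C → T, (∀ (c c' : C) (l : L), l • τ c = τ c' → c = c') ∧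
    ∀ c : C, D k (MulAction.stabilizer L (τ c)) ≤ N

theorem distK_zero {C G : Type*} [Group G] {H : Subgroup G} (h : Dist C H) : DistK 0 C H := by
  obtain ⟨f, hf⟩ := h.stab
  exact ⟨f, hf⟩

theorem D_stab_smul {L T : Type*} [Group L] [MulAction L T] {N : Subgroup L} [hN : N.Normal]
    {k : ℕ} {t : T} (h : D k (MulAction.stabilizer L t) ≤ N) (l : L) :
    D k (MulAction.stabilizer L (l • t)) ≤ N := fun x hx => by
  have := hN.conj_mem _ (h (mem_D_map (MulAut.conj l⁻¹).toMonoidHom (fun s hs => by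
    have hs : s • l • t = l • t := hs
    simp [mul_smul, hs]) hx)) l
  simpa [mul_assoc] using this

theorem wreathK {C G T : Type*} [Group G] {L : Subgroup G} [MulAction L T] {N : Subgroup L}
    [N.Normal] {a b : ℕ} (hD : DistK a C L) (hM : ManyK b C T N) :
    ∃ φ : G → T, (∀ (g : G) (l : L), φ (g * l) = l⁻¹ • φ g) ∧
      ∀ S : Subgroup G, (∀ s ∈ S, ∀ g, φ (s * g) = φ g) → ∀ s ∈ D (a + b) S, ∀ g : G,
        ∃ l ∈ N, (l : G) = g⁻¹ * s * g := by
  obtain ⟨f, hf⟩ := hD
  obtain ⟨τ, h1, h2⟩ := hM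
  have hm : ∀ g : G, g⁻¹ * (g : G ⧸ L).out ∈ L := fun g =>
    QuotientGroup.eq.1 (QuotientGroup.out_eq' _).symm
  let φ : G → T := fun g => (⟨_, hm g⟩ : L) • τ (f g)
  have hφ : ∀ (g : G) (l : L), φ (g * l) = l⁻¹ • φ g := fun g l => by
    have : ((g * l : G) : G ⧸ L) = g := QuotientGroup.mk_mul_of_mem g l.2
    simp only [φ, smul_smul, this]
    congr 1
    ext
    simp [mul_assoc]
  refine ⟨φ, hφ, fun S hS s hs g => ?_⟩
  have h3 : D a S ≤ L.normalCore := (D_mono (fun s hs => funext fun q => by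
    obtain ⟨g, rfl⟩ := QuotientGroup.mk_surjective q
    exact h1 _ _ ((⟨_, hm g⟩ : L)⁻¹ * ⟨_, hm (s⁻¹ * g)⟩) (by
      rw [mul_smul, inv_smul_eq_iff]
      exact hS _ (S.inv_mem hs) g)) a).trans hf
  rw [D_add] at hs
  obtain ⟨l, hl, e⟩ := exists_of_mem_D (L := L) (T := MulAction.stabilizer L (φ g))
    (S := (D a S).map (MulAut.conj g⁻¹).toMonoidHom) (by
      rintro _ ⟨s, hs, rfl⟩
      have h4 : g⁻¹ * s * g ∈ L := by simpa using h3 hs g⁻¹
      have h5 := hφ g ⟨_, h4⟩
      rw [show g * ((⟨_, h4⟩ : L) : G) = s * g by simp [mul_assoc], hS s (D_le a S hs),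
        eq_inv_smul_iff] at h5
      exact ⟨⟨_, h4⟩, h5, by simp⟩)
    (mem_D_map (MulAut.conj g⁻¹).toMonoidHom (fun s hs => mem_map_of_mem _ hs) hs)
  exact ⟨l, D_stab_smul (h2 _) _ hl, by simpa using e⟩

theorem DistK.trans {C C' G : Type*} [Group G] {H L : Subgroup G} {a b : ℕ} (hD : DistK a C L)
    (hM : ManyK b C (Col (L ⧸ H.subgroupOf L) C') (H.subgroupOf L).normalCore) (hHL : H ≤ L) :
    DistK (a + b) C' H := by
  obtain ⟨φ, h1, h2⟩ := wreathK hD hM
  refine ⟨fun q => Quotient.liftOn' q (fun g => φ g ((1 : L) : L ⧸ H.subgroupOf L)) fun a b h => ?_,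
    fun s hs g => ?_⟩
  · rw [QuotientGroup.leftRel_apply] at h
    have := h1 a ⟨_, hHL h⟩
    rw [show a * ((⟨_, hHL h⟩ : L) : G) = b by simp] at this
    rw [this, col_smul, inv_inv]
    congr 1
    exact QuotientGroup.eq.2 (by simpa [mem_subgroupOf] using h)
  · obtain ⟨l, hl, h⟩ := h2 _ (fun s hs g => funext fun q => by
      obtain ⟨l, rfl⟩ := QuotientGroup.mk_surjective q
      have e : ∀ g : G, φ g l = φ (g * l) ((1 : L) : L ⧸ H.subgroupOf L) := fun g => by
        rw [h1, col_smul, inv_inv]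
        congr 1
        exact QuotientGroup.eq.2 (by simp)
      rw [e, e, mul_assoc]
      have := (col_smul s⁻¹ _ _).symm.trans (congrFun (inv_mem hs) ((g * l : G) : G ⧸ H))
      rw [inv_inv] at this
      exact this) s hs g⁻¹
    rw [inv_inv] at h
    exact h ▸ (mem_subgroupOf.1 (normalCore_le _ hl) : (l : G) ∈ H)

theorem distK_step {C C' G : Type*} [Nonempty C'] [Group G] [Finite G] {a b : ℕ}
    (h0 : ∀ L : Subgroup G, DistK a C L)
    (h : ∀ (L : Subgroup G) (H : Subgroup L), IsCoatom H → ManyK b C (Col (L ⧸ H) C') H.normalCore)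
    (H : Subgroup G) : DistK (a + b) C' H := by
  by_cases h1 : H = ⊤
  · subst h1
    exact ⟨fun _ => Classical.arbitrary C', fun _ _ _ => mem_top _⟩
  obtain ⟨L, hL⟩ := exists_covBy_of_wellFoundedLT (a := H) (by simpa using h1)
  exact (h0 L).trans (h L _ (isCoatom_subgroupOf hL)) hL.le

section Count

variable {L T : Type*} [Group L] [MulAction L T]

theorem card_mul_index_le {C : Type*} [Finite L] [Finite T] {N : Subgroup L} (h : Many C T N) :
    Nat.card C * N.index ≤ Nat.card T := by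
  obtain ⟨τ, h1, h2⟩ := h
  rw [index_eq_card, ← Nat.card_prod]
  refine Nat.card_le_card_of_injective (fun x : C × (L ⧸ N) => x.2.out • τ x.1) ?_
  rintro ⟨c, x⟩ ⟨c', y⟩ h
  have h3 : (y.out⁻¹ * x.out) • τ c = τ c' := by
    rw [mul_smul, inv_smul_eq_iff]
    exact h
  obtain rfl := h1 _ _ _ h3
  have := QuotientGroup.eq.2 (h2 _ _ h3)
  rw [QuotientGroup.out_eq', QuotientGroup.out_eq'] at this
  rw [this]

theorem exists_inequiv [Finite L] [Finite T] (R : Set T) (c : ℕ)
    (h : c * Nat.card L < R.ncard) :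
    ∃ τ : Fin (c + 1) → T, (∀ (i j : Fin (c + 1)) (l : L), l • τ i = τ j → i = j) ∧ ∀ i, τ i ∈ R := by
  let π : T → MulAction.orbitRel.Quotient L T := Quotient.mk _
  have h1 : c + 1 ≤ (π '' R).ncard := by
    by_contra h1
    classical
    have := Fintype.ofFinite T
    have h2 := Finset.card_le_mul_card_image (f := π) R.toFinset (Nat.card L) fun a _ => by
      obtain ⟨t, rfl⟩ := Quotient.exists_rep a
      have : (R.toFinset.filter fun x => π x = Quotient.mk _ t) ⊆ (MulAction.orbit L t).toFinset :=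
        fun x hx => Set.mem_toFinset.2 (Quotient.exact (Finset.mem_filter.1 hx).2)
      refine (Finset.card_le_card this).trans ?_
      rw [← Set.ncard_eq_toFinset_card', ← MulAction.index_stabilizer]
      exact Nat.le_of_dvd Nat.card_pos (index_dvd_card _)
    rw [← Set.toFinset_image, ← Set.ncard_eq_toFinset_card', ← Set.ncard_eq_toFinset_card'] at h2
    have := Nat.mul_le_mul_left (Nat.card L) (show (π '' R).ncard ≤ c by omega)
    rw [mul_comm] at h
    omega
  obtain ⟨e⟩ : Nonempty (Fin (c + 1) ↪ (π '' R)) := by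
    have := Fintype.ofFinite (π '' R)
    exact Function.Embedding.nonempty_of_card_le (by
      rwa [Fintype.card_fin, ← Nat.card_eq_fintype_card])
  choose τ h2 h3 using fun i => (e i).2
  exact ⟨τ, fun i j l h => e.injective (Subtype.ext (by
    rw [← h3, ← h3, ← h]
    exact (Quotient.sound ⟨l, rfl⟩ : π (l • τ i) = π (τ i)).symm)), h2⟩

end Count

section Mod

variable {C G V : Type*} [Group G] [AddCommGroup V] [DistribMulAction G V]

theorem blk_sum_zero {U : AddSubgroup V} (hU : Blk G U) [Fintype (G ⧸ MulAction.stabilizer G U)]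
    (x : G ⧸ MulAction.stabilizer G U → V) (hx : ∀ q, x q ∈ q.out • U) (h : ∑ q, x q = 0)
    (q : G ⧸ MulAction.stabilizer G U) : x q = 0 := by
  classical
  rw [← Finset.add_sum_erase _ _ (Finset.mem_univ q), add_eq_zero_iff_eq_neg] at h
  have e3 : q.out⁻¹ • x q = 0 := (AddSubgroup.disjoint_def.1 hU)
    (AddSubgroup.mem_pointwise_smul_iff_inv_smul_mem.1 (hx q)) (by
      rw [h, smul_neg, Finset.smul_sum]
      refine neg_mem (sum_mem fun q' hq => ?_)
      refine (le_iSup₂ (f := fun (g : G) (_ : g • U ≠ U) => g • U) (q.out⁻¹ * q'.out)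
        fun h => (Finset.mem_erase.1 hq).1 ?_) ?_
      · rw [← QuotientGroup.out_eq' q, ← QuotientGroup.out_eq' q', eq_comm, QuotientGroup.eq]
        exact h
      · rw [mul_smul]
        exact AddSubgroup.smul_mem_pointwise_smul _ _ _ (hx _))
  rwa [smul_eq_zero_iff_eq] at e3

theorem blk_card [Finite G] [Finite V] {U : AddSubgroup V} (hU : Blk G U) :
    Nat.card U ^ (MulAction.stabilizer G U).index ≤ Nat.card V := by
  have := Fintype.ofFinite (G ⧸ MulAction.stabilizer G U)
  rw [index_eq_card, ← Nat.card_fun]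
  refine Nat.card_le_card_of_injective
    (fun φ : G ⧸ MulAction.stabilizer G U → U => ∑ q, q.out • (φ q : V)) fun φ ψ h => ?_
  funext q
  have := blk_sum_zero hU (fun q => q.out • ((φ q - ψ q : U) : V))
    (fun q => AddSubgroup.smul_mem_pointwise_smul _ _ _ (φ q - ψ q).2) (by
      simp only [AddSubgroup.coe_sub, smul_sub, Finset.sum_sub_distrib]
      exact sub_eq_zero.2 h) q
  rwa [smul_eq_zero_iff_eq, ZeroMemClass.coe_eq_zero, sub_eq_zero] at this

theorem le_kerA_of_fix (hV : Irr G V) {U : AddSubgroup V} (h0 : U ≠ ⊥) {s : G}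
    (h : ∀ g : G, ∀ u ∈ U, (g⁻¹ * s * g) • u = u) : s ∈ kerA G V := by
  let W : AddSubgroup V :=
    { carrier := {v | ∀ g : G, (g⁻¹ * s * g) • v = v}
      zero_mem' := fun g => smul_zero _
      add_mem' := fun {a b} ha hb g => by rw [smul_add, ha, hb]
      neg_mem' := fun {a} ha g => by rw [smul_neg, ha] }
  have hW := (hV W fun k v hv g => by
    have := congrArg (k • ·) (hv (g * k))
    simpa [smul_smul, mul_assoc] using this).resolve_left fun h1 =>
      h0 (le_bot_iff.1 (h1 ▸ fun u hu g => h g u hu))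
  exact mem_kerA.2 fun v => by simpa using hW.ge (AddSubgroup.mem_top v) 1

variable (G V) in
/-- Some vector has a stabilizer of derived length at most `k` modulo the kernel. -/
def Good (k : ℕ) : Prop := ∃ v : V, D k (MulAction.stabilizer G v) ≤ kerA G V

theorem good_of_blk [Finite G] (hV : Irr G V) {U : AddSubgroup V} (h0 : U ≠ ⊥) (hU : Blk G U)
    {a b : ℕ} (hD : DistK a C (MulAction.stabilizer G U))
    (hM : letI := resAct (mInv_stabilizer (G := G) U);
      ManyK b C U (kerA (MulAction.stabilizer G U) U)) : Good G V (a + b) := by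
  let _ := resAct (mInv_stabilizer (G := G) U)
  obtain ⟨φ, h1, h2⟩ := wreathK hD hM
  have := Fintype.ofFinite (G ⧸ MulAction.stabilizer G U)
  let ψ : G → V := fun g => g • (φ g : V)
  have hψ : ∀ a b : G, (a : G ⧸ MulAction.stabilizer G U) = b → ψ a = ψ b := fun a b h => by
    have h3 := QuotientGroup.eq.1 h
    have h4 := h1 a ⟨_, h3⟩
    rw [show a * ((⟨_, h3⟩ : MulAction.stabilizer G U) : G) = b by simp] at h4
    simp only [ψ, h4]
    change _ = b • (a⁻¹ * b)⁻¹ • (φ a : V)
    simp [smul_smul]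
  refine ⟨∑ q : G ⧸ MulAction.stabilizer G U, ψ q.out, fun s hs => le_kerA_of_fix hV h0
    fun g u hu => ?_⟩
  suffices h : ∀ s ∈ MulAction.stabilizer G (∑ q : G ⧸ MulAction.stabilizer G U, ψ q.out),
      ∀ g, φ (s * g) = φ g by
    obtain ⟨l, hl, e⟩ := h2 _ h s hs g
    exact e ▸ congrArg Subtype.val (mem_kerA.1 hl ⟨u, hu⟩)
  intro s hs g
  have e : s⁻¹ • _ = _ := inv_mem hs
  rw [← Equiv.sum_comp (MulAction.toPerm s) fun q : G ⧸ MulAction.stabilizer G U => ψ q.out,
    Finset.smul_sum, Equiv.sum_comp (MulAction.toPerm s)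
      fun q : G ⧸ MulAction.stabilizer G U => ψ q.out, ← sub_eq_zero,
    ← Finset.sum_sub_distrib] at e
  have e1 : ∀ q : G ⧸ MulAction.stabilizer G U,
      ψ (MulAction.toPerm s q).out = ψ (s * q.out) := fun q => hψ _ _ (by
    rw [QuotientGroup.out_eq', MulAction.toPerm_apply, ← MulAction.Quotient.mk_smul_out]; rfl)
  simp only [e1] at e
  have e2 : _ - ψ _ = 0 := blk_sum_zero hU _ (fun q => AddSubgroup.sub_mem _ (by
    simp only [ψ, smul_smul, inv_mul_cancel_left]
    exact AddSubgroup.smul_mem_pointwise_smul _ _ _ (φ _).2)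
    (AddSubgroup.smul_mem_pointwise_smul _ _ _ (φ _).2)) e g
  rw [hψ _ g (QuotientGroup.out_eq' _), hψ (s * _) (s * g) (by
    rw [← smul_eq_mul, MulAction.Quotient.mk_smul_out]; rfl), sub_eq_zero] at e2
  simp only [ψ, smul_smul, inv_mul_cancel_left] at e2
  exact Subtype.ext (MulAction.injective g e2)

theorem mem_kerA_sup {U W : AddSubgroup V} (hU : MInv G U) (hW : MInv G W) (h2 : U ⊔ W = ⊤) {g : G}
    (bU : letI := resAct hU; g ∈ kerA G U) (bW : letI := resAct hW; g ∈ kerA G W) :
    g ∈ kerA G V := mem_kerA.2 fun v => by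
  let _ := resAct hU
  let _ := resAct hW
  obtain ⟨a, ha, b, hb, rfl⟩ := AddSubgroup.mem_sup.1 (h2.ge (AddSubgroup.mem_top v))
  have e1 : g • a = a := congrArg Subtype.val (mem_kerA.1 bU ⟨a, ha⟩)
  have e2 : g • b = b := congrArg Subtype.val (mem_kerA.1 bW ⟨b, hb⟩)
  rw [smul_add, e1, e2]

theorem Good.sup {U W : AddSubgroup V} (hU : MInv G U) (hW : MInv G W) (h1 : U ⊓ W = ⊥)
    (h2 : U ⊔ W = ⊤) {k : ℕ} (bU : letI := resAct hU; Good G U k)
    (bW : letI := resAct hW; Good G W k) : Good G V k := by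
  let _ := resAct hU
  let _ := resAct hW
  obtain ⟨u, hu⟩ := bU
  obtain ⟨w, hw⟩ := bW
  have h3 : ∀ g ∈ MulAction.stabilizer G ((u : V) + w), g • u = u ∧ g • w = w := fun g e => by
    rw [MulAction.mem_stabilizer_iff, smul_add] at e
    have e1 : g • (u : V) - u = w - g • (w : V) := by
      rw [sub_eq_sub_iff_add_eq_add, e, add_comm]
    have : g • (u : V) - u ∈ U ⊓ W :=
      ⟨U.sub_mem (hU g _ u.2) u.2, e1 ▸ W.sub_mem w.2 (hW g _ w.2)⟩
    rw [h1, AddSubgroup.mem_bot] at this
    exact ⟨Subtype.ext (sub_eq_zero.1 this), Subtype.ext (sub_eq_zero.1 (e1.symm.trans this)).symm⟩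
  exact ⟨u + w, fun g hg => mem_kerA_sup hU hW h2 (hu (D_mono (fun g h => (h3 g h).1) k hg))
    (hw (D_mono (fun g h => (h3 g h).2) k hg))⟩

theorem card_lt_of_ne_top [Finite V] (U : AddSubgroup V) (h : U ≠ ⊤) : Nat.card U < Nat.card V :=
  Finite.card_subtype_lt (not_forall.1 fun h' => h ((AddSubgroup.eq_top_iff' U).2 h')).choose_spec

theorem good_of_irr {G : Type*} [Group G] {k : ℕ} {P : ℕ → Prop} (hP : ∀ a b, a ∣ b → P b → P a)
    (h : ∀ (V : Type u) [AddCommGroup V] [Finite V] [Nontrivial V] [DistribMulAction G V],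
      P (Nat.card V) → Irr G V → Good G V k)
    (V : Type u) [AddCommGroup V] [Finite V] [DistribMulAction G V] (h0 : P (Nat.card V))
    (hV : CR G V) : Good G V k := by
  induction hm : Nat.card V using Nat.strong_induction_on generalizing V with
  | _ m ihm =>
    subst hm
    by_cases h1 : Irr G V
    · rcases subsingleton_or_nontrivial V with h2 | h2
      · exact ⟨0, fun _ _ => mem_kerA.2 fun _ => Subsingleton.elim _ _⟩
      exact h V h0 h1
    simp only [Irr, not_forall, not_or] at h1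
    obtain ⟨U, hU, h2, h1⟩ := h1
    obtain ⟨W, hW, h3, h4⟩ := hV U hU
    let _ := resAct hU
    let _ := resAct hW
    exact Good.sup hU hW h3 h4 (ihm _ (card_lt_of_ne_top U h1) U
      (hP _ _ (AddSubgroup.card_addSubgroup_dvd_card U) h0) (hV.res hU) rfl)
      (ihm _ (card_lt_of_ne_top W fun h => h2 (by simpa [h] using h3)) W
        (hP _ _ (AddSubgroup.card_addSubgroup_dvd_card W) h0) (hV.res hW) rfl)

variable (G V) in
/-- The map onto the image. -/
def toRng : G →* rng G V :=
  (DistribMulAction.toModuleAut ℤ V : G →* V ≃ₗ[ℤ] V).rangeRestrict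

theorem toRng_smul (g : G) (v : V) : toRng G V g • v = g • v := rfl

theorem le_kerA_of_rng {k : ℕ} {S : Subgroup G} {T : Subgroup (rng G V)}
    (h : ∀ s ∈ S, toRng G V s ∈ T) (h1 : D k T ≤ kerA (rng G V) V) : D k S ≤ kerA G V :=
  fun _ hx => mem_kerA.2 (mem_kerA.1 (h1 (mem_D_map _ h hx)))

theorem ManyK.of_rng {k : ℕ} (h : ManyK k C V (kerA (rng G V) V)) : ManyK k C V (kerA G V) := by
  obtain ⟨τ, h1, h2⟩ := h
  exact ⟨τ, fun c c' l h => h1 c c' (toRng G V l) h, fun c => le_kerA_of_rng (fun _ h => h) (h2 c)⟩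

theorem Good.of_rng {k : ℕ} (h : Good (rng G V) V k) : Good G V k := by
  obtain ⟨v, hv⟩ := h
  exact ⟨v, le_kerA_of_rng (fun _ h => h) hv⟩

end Mod

end CfsgLib.DL9
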