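import Mathlib
import Cfsg.Agent.Lib.DL9.Basic

/-!
The affine structure of primitive solvable groups and the derived length of small solvable
permutation groups.
-/

set_option autoImplicit false

namespace CfsgLib.DL9

open Subgroup CfsgLib.Base
open scoped Pointwise commutatorElement IsMulCommutative

universe u

/-- Conjugation action on an abelian normal subgroup of an image. -/
@[reducible] def cAct {X Y : Type*} [Group X] [Group Y] (π : X →* Y) (M : Subgroup Y)
    [hM : M.Normal] [IsMulCommutative M] : DistribMulAction X (Additive M) where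
  smul h m := Additive.ofMul ⟨π h * m.toMul * (π h)⁻¹, hM.conj_mem _ m.toMul.2 _⟩
  one_smul m := congrArg Additive.ofMul (Subtype.ext (by simp; rfl))
  mul_smul a b m := congrArg Additive.ofMul (Subtype.ext (by
    change _ = π a * (π b * m.toMul * (π b)⁻¹) * (π a)⁻¹
    simp [mul_assoc]))
  smul_zero h := congrArg Additive.ofMul (Subtype.ext (by simp))
  smul_add h m n := congrArg Additive.ofMul (Subtype.ext (by
    change _ = π h * m.toMul * (π h)⁻¹ * (π h * n.toMul * (π h)⁻¹)
    simp [mul_assoc]))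

theorem cAct_normal {X Y : Type*} [Group X] [Group Y] {π : X →* Y} (hπ : Function.Surjective π)
    {M : Subgroup Y} [M.Normal] [IsMulCommutative M] {U : AddSubgroup (Additive M)}
    (hU : letI := cAct π M; MInv X U) : (U.toSubgroup'.map M.subtype).Normal := ⟨by
  rintro _ ⟨n, hn, rfl⟩ g
  obtain ⟨g, rfl⟩ := hπ g
  exact ⟨_, hU g (Additive.ofMul n) hn, rfl⟩⟩

theorem cAct_cr {X Y : Type*} [Group X] [Group Y] {π : X →* Y} (hπ : Function.Surjective π)
    {M : Subgroup Y} [M.Normal] [IsMulCommutative M]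
    (hM : ∀ N : Subgroup Y, N.Normal → N ≤ M → ∃ W : Subgroup Y, W.Normal ∧ N ⊓ W = ⊥ ∧ N ⊔ W = M) :
    letI := cAct π M; CR X (Additive M) := fun U hU => by
  obtain ⟨W, hW, h1, h2⟩ := hM _ (cAct_normal hπ hU) (map_subtype_le _)
  refine ⟨(W.subgroupOf M).toAddSubgroup, fun g u hu => hW.conj_mem _ hu _, ?_, ?_⟩
  · rw [eq_bot_iff]
    intro w hw
    exact congrArg Additive.ofMul (Subtype.ext (h1.le ⟨⟨_, hw.1, rfl⟩, hw.2⟩) :
      Additive.toMul w = 1)
  · rw [eq_top_iff]
    intro u _
    have : (u.toMul : Y) ∈ (↑(U.toSubgroup'.map M.subtype ⊔ W) : Set Y) := h2.ge u.toMul.2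
    rw [mul_normal] at this
    obtain ⟨_, ⟨a, ha, rfl⟩, b, hb, e⟩ := this
    exact AddSubgroup.mem_sup.2 ⟨Additive.ofMul a, ha,
      Additive.ofMul ⟨b, (le_sup_right.trans h2.le) hb⟩, hb,
      congrArg Additive.ofMul (Subtype.ext e)⟩

theorem exists_aff {X : Type u} [Group X] [Finite X] [Group.IsSolvable X] {H : Subgroup X}
    (hH : IsCoatom H) : ∃ (V : Type u) (_ : AddCommGroup V) (_ : Finite V)
      (_ : DistribMulAction X V) (e : V ≃ X ⧸ H) (μ : X → V) (p k : ℕ), p.Prime ∧
      Nat.card V = p ^ k ∧ Irr X V ∧ ∀ x v, x • e v = e (μ x + x • v) := by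
  let π := QuotientGroup.mk' H.normalCore
  have hπ : Function.Surjective π := QuotientGroup.mk'_surjective _
  have hk : π.ker ≤ H := by rw [QuotientGroup.ker_mk']; exact normalCore_le H
  have h1 : (H.map π).comap π = H := comap_map_eq_self hk
  have hcore : ∀ N : Subgroup (X ⧸ H.normalCore), N.Normal → N ≤ H.map π → N = ⊥ := fun N _ h => by
    rw [← map_comap_eq_self_of_surjective hπ N, Subgroup.map_eq_bot_iff,
      QuotientGroup.ker_mk', normal_le_normalCore]
    exact (comap_mono h).trans h1.le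
  have : Nontrivial (X ⧸ H.normalCore) := by
    by_contra h
    have := not_nontrivial_iff_subsingleton.1 h
    exact hH.1 (by rw [← h1, Subsingleton.elim (H.map π) ⊤, comap_top])
  obtain ⟨p, M, hp, hM, hM0, hel, hmin⟩ :=
    Core.exists_elementaryAbelian_minimal_normal (X ⧸ H.normalCore)
  have : IsMulCommutative M := hel.1
  have hsup : M ⊔ H.map π = ⊤ := by
    rw [← map_comap_eq_self_of_surjective hπ (M ⊔ _), hH.2 _ (h1.symm.trans_lt
      ((comap_lt_comap_of_surjective hπ).2 (lt_of_le_of_ne le_sup_right fun h =>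
        hM0 (hcore M hM (h ▸ le_sup_left))))), map_top_of_surjective _ hπ]
  have hdec : ∀ x, ∃ m ∈ M, ∃ h ∈ H.map π, m * h = x := fun x => by
    have : x ∈ (↑(M ⊔ H.map π) : Set (X ⧸ H.normalCore)) := hsup ▸ mem_top x
    rw [normal_mul] at this
    exact this
  have hinf : M ⊓ H.map π = ⊥ := hcore _ ⟨fun n hn x => by
    obtain ⟨m, hm, h, hh, rfl⟩ := hdec x
    have h2 := hM.conj_mem n hn.1 h
    rw [show m * h * n * (m * h)⁻¹ = m * (h * n * h⁻¹) * m⁻¹ by group,
      setLike_mul_comm (s := M) hm h2, mul_inv_cancel_right]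
    exact ⟨h2, (H.map π).mul_mem ((H.map π).mul_mem hh hn.2) ((H.map π).inv_mem hh)⟩⟩ inf_le_right
  let _ := cAct π M
  choose s hs using hπ
  let e₀ : Additive M → X ⧸ H := fun m => s m.toMul
  have he : ∀ (m : Additive M) (y : X), e₀ m = y ↔ (m.toMul : X ⧸ H.normalCore)⁻¹ * π y ∈ H.map π :=
    fun m y => by
      refine QuotientGroup.eq.trans ?_
      rw [← SetLike.ext_iff.1 h1, mem_comap, map_mul, map_inv, hs]
  have hb : Function.Bijective e₀ := ⟨fun m n h => by
    have h2 := (he m _).1 h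
    rw [hs] at h2
    have := hinf.le ⟨M.mul_mem (M.inv_mem m.toMul.2) n.toMul.2, h2⟩
    exact Additive.toMul.injective (Subtype.ext (inv_mul_eq_one.1 this)), fun q => by
    obtain ⟨y, rfl⟩ := QuotientGroup.mk_surjective q
    obtain ⟨m, hm, h, hh, e⟩ := hdec (π y)
    exact ⟨Additive.ofMul ⟨m, hm⟩, (he _ y).2 (by rw [← e]; simpa using hh)⟩⟩
  have := Fact.mk hp
  obtain ⟨k, hk⟩ := IsPGroup.iff_card.1 (Core.isElementaryAbelian_isPGroup hel)
  let e := Equiv.ofBijective e₀ hb
  refine ⟨Additive M, inferInstance, inferInstance, inferInstance, e, fun x => e.symm x, p, k, hp,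
    hk, fun U hU => ?_, fun x v => ((he _ (x * s v.toMul)).2 ?_).symm⟩
  · refine (hmin _ (cAct_normal (fun y => ⟨_, hs y⟩) hU) (map_subtype_le _)).imp (fun h => ?_)
      fun h => ?_
    · rw [map_eq_bot_iff_of_injective _ M.subtype_injective] at h
      exact AddSubgroup.toSubgroup'.injective (h.trans (BotHomClass.map_bot _).symm)
    · have h2 : U.toSubgroup' = ⊤ := map_injective M.subtype_injective
        (by rw [h, ← MonoidHom.range_eq_map, range_subtype])
      exact AddSubgroup.toSubgroup'.injective (h2.trans (map_top _).symm)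
  · have h2 := (he _ x).1 (e.apply_symm_apply x)
    rw [add_comm]
    change (π x * v.toMul * (π x)⁻¹ * (e.symm x).toMul)⁻¹ * _ ∈ _
    rw [map_mul, hs]
    simpa [mul_assoc] using h2

theorem mem_core {X : Type*} [Group X] {H : Subgroup X} {x : X} :
    x ∈ H.normalCore ↔ ∀ q : X ⧸ H, x • q = q := by
  simp [normalCore_eq_ker, Equiv.ext_iff]

theorem D_succ_le_core {X V : Type*} [Group X] [AddCommGroup V] [DistribMulAction X V]
    {H : Subgroup X} (e : V ≃ X ⧸ H) {μ : X → V} (h : ∀ x v, x • e v = e (μ x + x • v)) {k : ℕ}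
    (hk : D k ⊤ ≤ kerA X V) : D (k + 1) ⊤ ≤ H.normalCore :=
  commutator_le.2 fun a ha b hb => mem_core.2 fun q => by
    obtain ⟨v, hv⟩ := e.surjective ((b * a)⁻¹ • q)
    rw [eq_inv_smul_iff] at hv
    rw [← hv, smul_smul, show ⁅a, b⁆ * (b * a) = a * b by group, mul_smul, mul_smul, h b, h a, h a,
      h b]
    simp only [mem_kerA.1 (hk ha), mem_kerA.1 (hk hb), add_left_comm]

/-- Bounds for the derived length of linear groups. -/
def dt (n : ℕ) : ℕ :=
  if n < 3 then 0 else if n = 3 then 1 else if n ≤ 8 then 2 else if n = 16 then 3 else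
    if n < 64 then 4 else if n < 4096 then 6 else if n < 6561 then 7 else 8

/-- Bounds for the derived length of permutation groups. -/
def dp (n : ℕ) : ℕ :=
  if n ≤ 1 then 0 else if n = 2 then 1 else if n = 3 then 2 else if n ≤ 7 then 3 else
    if n = 8 then 4 else 5

/-- The bound for modules of order less than `n`. -/
def TLT (n : ℕ) : Prop :=
  ∀ (G V : Type u) [Group G] [Finite G] [Group.IsSolvable G] [AddCommGroup V] [Finite V]
    [DistribMulAction G V], Nat.card V < n → CR G V → D (dt (Nat.card V)) ⊤ ≤ kerA G V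

theorem TLT.dp_le {n : ℕ} (h : TLT.{u} n) {X : Type u} [Group X] [Finite X] [Group.IsSolvable X]
    (H : Subgroup X) (h1 : H.index ≤ 15) (h2 : H.index < n) : D (dp H.index) ⊤ ≤ H.normalCore := by
  induction hm : H.index using Nat.strong_induction_on generalizing X with
  | _ m ih =>
    subst hm
    rcases eq_top_or_exists_le_coatom H with rfl | ⟨L, hL, hHL⟩
    · exact fun _ _ _ => mem_top _
    obtain ⟨V, _, _, _, e, μ, p, k, -, -, hV, he⟩ := exists_aff hL
    have h3 := relIndex_mul_index hHL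
    have h4 : Nat.card V = L.index := Nat.card_congr e
    have h5 : 1 < L.index := one_lt_index_of_ne_top hL.1
    have h6 : 0 < H.relIndex L := Nat.pos_of_ne_zero index_ne_zero_of_finite
    have h7 : L.index ≤ H.index := h3 ▸ Nat.le_mul_of_pos_left _ h6
    have h8 : H.relIndex L < H.index := h3 ▸ lt_mul_of_one_lt_right h6 h5
    have h9 := D_succ_le_core e he (h X V (by omega) hV.cr)
    have h10 := ih _ h8 (H.subgroupOf L) (h8.le.trans h1) (h8.trans h2) rfl
    have h11 : ∀ a ≤ 15, ∀ b ≤ 15, 0 < a → 1 < b → a * b ≤ 15 → dt b + 1 + dp a ≤ dp (a * b) := by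
      decide +kernel
    refine normal_le_normalCore.2 ((D_anti (h3 ▸ h11 _ (by omega) _ (by omega) h6 h5 (h3 ▸ h1)) _).trans
      fun x hx => ?_)
    rw [D_add, ← h4] at hx
    obtain ⟨l, hl, rfl⟩ := exists_of_mem_D (T := (⊤ : Subgroup L))
      (fun s hs => ⟨⟨s, normalCore_le L (h9 hs)⟩, mem_top _, rfl⟩) hx
    exact normalCore_le (H.subgroupOf L) (h10 hl)

end CfsgLib.DL9
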