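import Mathlib
import Cfsg.Agent.Lib.Base.Sec9

/-!
The derived length of small completely reducible solvable linear groups.
-/

set_option autoImplicit false

namespace CfsgLib.DL9

open Subgroup CfsgLib.Base Module
open scoped Pointwise commutatorElement IsMulCommutative

universe u

theorem TLT.mono {m n : ℕ} (h : TLT.{u} n) (hm : m ≤ n) : TLT.{u} m :=
  fun G V _ _ _ _ _ _ h1 => h G V (h1.trans_le hm)

theorem TLT.D_W {n : ℕ} (h : TLT.{u} n) {G : Type u} {V K : Type*} [Group G] [AddCommGroup V]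
    [DistribMulAction G V] [Field K] [Module K V] [Finite G] [Group.IsSolvable G] [FaithfulSMul G V]
    (S : PSetup G V K) (hm : Nat.card S.W < n) {k : ℕ} (h1 : 1 ≤ k) (hk : dt (Nat.card S.W) ≤ k) :
    D (k + 1) ⊤ ≤ S.A :=
  S.D_le_A h1 ((D_anti hk _).trans (h G (Additive S.W) hm S.cr_W))

theorem D_one_cyclic {G V : Type*} [Group G] [AddCommGroup V] [DistribMulAction G V]
    [IsAddCyclic V] : D 1 ⊤ ≤ kerA G V := by
  obtain ⟨v, hv⟩ := IsAddCyclic.exists_generator (α := V)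
  refine commutator_le.2 fun a _ b _ => mem_kerA.2 fun u => ?_
  obtain ⟨i, hi : i • v = _⟩ := hv (a • v)
  obtain ⟨j, hj : j • v = _⟩ := hv (b • v)
  obtain ⟨k, hk : k • v = _⟩ := hv ((b * a)⁻¹ • u)
  rw [eq_inv_smul_iff] at hk
  rw [← hk, smul_smul, show ⁅a, b⁆ * (b * a) = a * b by group]
  simp only [mul_smul, smul_comm a, smul_comm b, ← hi, ← hj, smul_comm i j]

theorem sq_lt_three_pow (d : ℕ) : d ^ 2 < 3 ^ d := by
  induction d with
  | zero => simp
  | succ d ih =>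
    rcases Nat.lt_or_ge d 2 with h | h
    · interval_cases d <;> norm_num
    · rw [pow_succ 3]; nlinarith

section

variable {G V K : Type*} [Group G] [AddCommGroup V] [DistribMulAction G V] [Field K] [Module K V]
  [Finite G] [Group.IsSolvable G] [FaithfulSMul G V] (S : PSetup G V K)

theorem D_one_le_A (h : Nat.card S.W = 1) : D 1 ⊤ ≤ S.A := fun g hg => by
  have : Subsingleton S.W := (Nat.card_eq_one_iff_unique.1 h).1
  have h1 : g ∈ S.F := S.mem_F_iff.2 ⟨mem_kerA.2 fun _ => Subsingleton.elim (α := S.W) _ _,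
    S.D_one_le hg⟩
  exact (QuotientGroup.eq_one_iff g).1
    (congrArg Subtype.val (Subsingleton.elim (⟨_, mem_map_of_mem _ h1⟩ : S.W) 1))

theorem params [Finite V] [Nontrivial V] [Finite K] (h : Nat.card S.W ≠ 1) :
    ∃ t, Nat.card S.W = t ^ 2 ∧ 2 ≤ t ∧ t ≤ finrank K V ∧ 3 ≤ Nat.card K ∧
      ∀ r, r.Prime → r ∣ t → r ∣ Nat.card S.A := by
  obtain ⟨t, ht⟩ := S.card_W_sq
  have h1 := S.card_W_le
  have h2 : 0 < Nat.card S.W := Nat.card_pos
  obtain ⟨r, hr, h3⟩ := Nat.exists_prime_and_dvd h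
  have h4 := Nat.le_of_dvd Nat.card_pos (S.prime_dvd hr h3)
  have := hr.two_le
  have := S.card_A_lt
  rw [ht] at h h1 h2
  refine ⟨t, ht, ?_, (Nat.pow_le_pow_iff_left two_ne_zero).1 h1, by omega, fun r hr h =>
    S.prime_dvd hr (ht ▸ h.trans (dvd_pow_self t two_ne_zero))⟩
  by_contra h5
  interval_cases t <;> simp at h h2

end

set_option synthInstance.maxSize 2000 in
theorem TLT.prim {G V : Type u} [Group G] [AddCommGroup V] [DistribMulAction G V] [Finite G]
    [Group.IsSolvable G] [FaithfulSMul G V] [Finite V] [Nontrivial V] (h : TLT.{u} (Nat.card V))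
    (hV : Nat.card V < 2 ^ 16) (hP : Prim G V) : D (dt (Nat.card V)) ⊤ ≤ kerA G V := by
  have h0 := Finite.one_lt_card (α := V)
  by_cases h2 : Nat.card V = 2
  · obtain ⟨v, -, hv⟩ := (Nat.card_eq_two_iff' (0 : V)).1 h2
    refine fun g _ => mem_kerA.2 fun u => ?_
    by_cases hu : u = 0
    · rw [hu, smul_zero]
    · rw [hv _ ((smul_ne_zero_iff_ne g).2 hu), hv u hu]
  by_cases h3 : Nat.card V = 3
  · have := Fact.mk Nat.prime_three
    have := isAddCyclic_of_prime_card h3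
    rw [h3]
    exact D_one_cyclic
  obtain ⟨K, _, _, _, ⟨S⟩⟩ := hP.exists_setup
  by_cases h1 : Nat.card S.W = 1
  · refine (D_anti ?_ _).trans (S.D_top (D_one_le_A S h1) _)
    unfold dt
    split_ifs <;> omega
  obtain ⟨t, h4, h5, h6, h7, h8⟩ := params S h1
  have h9 := Module.natCard_eq_pow_finrank (K := K) (V := V)
  have h10 : 3 ^ finrank K V ≤ Nat.card V := h9 ▸ Nat.pow_le_pow_left h7 _
  have h11 : finrank K V < 11 := by
    by_contra h
    have := Nat.pow_le_pow_right (n := 3) (by norm_num) (not_lt.1 h)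
    omega
  have h12 : Nat.card K < 256 := by
    by_contra h
    have := (Nat.pow_le_pow_right (n := 256) (by norm_num) (h5.trans h6)).trans
      (Nat.pow_le_pow_left (not_lt.1 h) _)
    omega
  have key : ∀ q < 256, ∀ d < 11, ∀ t ≤ d, 2 ≤ t → 3 ≤ q → (2 ∣ t → 2 ∣ q - 1) →
      (3 ∣ t → 3 ∣ q - 1) → q ^ d < 2 ^ 16 → max (dt (t ^ 2)) 1 + 1 + 1 ≤ dt (q ^ d) := by
    decide +kernel
  refine (D_anti ?_ _).trans (S.D_top (h.D_W S (S.card_W_le.trans_lt ((sq_lt_three_pow _).trans_le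
    h10)) (le_max_right _ 1) (le_max_left _ _)) _)
  rw [h4, h9]
  exact key _ h12 _ h11 t h6 h5 h7 (fun h => (h8 2 Nat.prime_two h).trans S.card_A_dvd)
    (fun h => (h8 3 Nat.prime_three h).trans S.card_A_dvd) (h9 ▸ hV)

theorem dt_cases (n : ℕ) : (n < 3 ∧ dt n = 0) ∨ (n = 3 ∧ dt n = 1) ∨ (3 < n ∧ n ≤ 8 ∧ dt n = 2) ∨
    (n = 16 ∧ dt n = 3) ∨ (8 < n ∧ n ≠ 16 ∧ n < 64 ∧ dt n = 4) ∨ (64 ≤ n ∧ n < 4096 ∧ dt n = 6) ∨
    (4096 ≤ n ∧ n < 6561 ∧ dt n = 7) ∨ (6561 ≤ n ∧ dt n = 8) := by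
  unfold dt
  split_ifs <;> omega

theorem dt_le_of_dvd {a n : ℕ} (h : a ∣ n) (hn : 0 < n) : dt a ≤ dt n := by
  obtain ⟨k, rfl⟩ := h
  obtain rfl | h : k = 1 ∨ 2 * a ≤ a * k := by
    rcases k with _ | _ | k
    · simp at hn
    · exact Or.inl rfl
    · exact Or.inr (by nlinarith)
  · rw [mul_one]
  · have := dt_cases a
    have := dt_cases (a * k)
    omega

theorem dp_add_dt_le {u m n : ℕ} (h1 : 2 ≤ u) (h2 : 0 < m) (h3 : u ^ m ≤ n) (h4 : u ∣ n)
    (h5 : n < 2 ^ 16) : m ≤ 15 ∧ m < n ∧ dp m + dt u ≤ dt n := by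
  have h6 := (Nat.pow_le_pow_left h1 m).trans h3
  have h7 : m < 16 := (Nat.pow_lt_pow_iff_right one_lt_two).1 (h6.trans_lt h5)
  refine ⟨by omega, m.lt_two_pow_self.trans_le h6, ?_⟩
  by_cases h : m = 1
  · subst h
    simpa [dp] using dt_le_of_dvd h4 (by omega)
  have h8 : u < 256 := by
    by_contra h8
    have := (Nat.pow_le_pow_right (n := 256) (by norm_num) (show 2 ≤ m by omega)).trans
      (Nat.pow_le_pow_left (not_lt.1 h8) _)
    omega
  have key : ∀ u < 256, ∀ m < 16, 2 ≤ u → 2 ≤ m → u ^ m < 2 ^ 16 →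
      dp m + dt u ≤ if 9 ≤ u ^ m ∧ u ^ m ≤ 16 then 3 else dt (u ^ m) := by decide +kernel
  refine (key u h8 m h7 h1 (by omega) (h3.trans_lt h5)).trans ?_
  have := dt_cases n
  have := dt_cases (u ^ m)
  split_ifs <;> omega

theorem tlt (n : ℕ) (hn : n ≤ 2 ^ 16) : TLT.{u} n := by
  induction n with
  | zero => exact fun _ _ _ _ _ _ _ _ h => absurd h (Nat.not_lt_zero _)
  | succ n ih =>
    intro G V _ _ _ _ _ _ h0 hV
    replace ih := (ih (by omega)).mono (Nat.le_of_lt_succ h0)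
    by_cases h1 : Irr G V
    · rcases subsingleton_or_nontrivial V with h2 | h2
      · exact fun _ _ => mem_kerA.2 fun _ => Subsingleton.elim _ _
      obtain ⟨U, hU0, hU, hp⟩ := exists_prim_blk (G := G) (V := V)
      let _ := resAct (mInv_stabilizer (G := G) U)
      have : Nontrivial U := (AddSubgroup.nontrivial_iff_ne_bot U).2 hU0
      have h3 := AddSubgroup.card_addSubgroup_dvd_card U
      have h4 := Nat.le_of_dvd Nat.card_pos h3
      obtain ⟨h5, h6, h7⟩ := dp_add_dt_le Finite.one_lt_card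
        (Nat.pos_of_ne_zero index_ne_zero_of_finite) (blk_card hU) h3 (by omega)
      have h8 := le_kerA_of_rng (S := ⊤) (fun _ _ => mem_top _)
        ((ih.mono h4).prim (by omega) (hp.of_same exists_rng))
      refine (D_anti h7 _).trans fun s hs => le_kerA_of_fix h1 hU0 fun g u hu => ?_
      have hs' := Normal.conj_mem' inferInstance s hs g
      rw [D_add] at hs'
      obtain ⟨l, hl, e⟩ := exists_of_mem_D (T := (⊤ : Subgroup (MulAction.stabilizer G U)))
        (fun s hs => ⟨⟨s, normalCore_le _ (ih.dp_le _ h5 h6 hs)⟩, mem_top _, rfl⟩) hs'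
      exact e ▸ congrArg Subtype.val (mem_kerA.1 (h8 hl) ⟨u, hu⟩)
    simp only [Irr, not_forall, not_or] at h1
    obtain ⟨U, hU, h2, h1⟩ := h1
    obtain ⟨W, hW, h3, h4⟩ := hV U hU
    let _ := resAct hU
    let _ := resAct hW
    exact fun g hg => mem_kerA_sup hU hW h4 (ih G U (card_lt_of_ne_top U h1) (hV.res hU) (D_anti
      (dt_le_of_dvd (AddSubgroup.card_addSubgroup_dvd_card U) Nat.card_pos) _ hg))
      (ih G W (card_lt_of_ne_top W fun h => h2 (by simpa [h] using h3)) (hV.res hW) (D_anti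
        (dt_le_of_dvd (AddSubgroup.card_addSubgroup_dvd_card W) Nat.card_pos) _ hg))

theorem D_smul {X : Type u} {Ω : Type*} [Group X] [Finite X] [Group.IsSolvable X]
    [MulAction X Ω] {S : Subgroup X} {w : Ω} (T : Finset Ω) {k : ℕ}
    (h7 : (T.card ≤ 7 ∧ k = 3) ∨ (T.card ≤ 2 ∧ k = 1))
    (h : ∀ s ∈ S, s • w ∈ T) {x : X} (hx : x ∈ D k S) : x • w = w := by
  obtain ⟨l, hl, rfl⟩ := exists_of_mem_D (T := (⊤ : Subgroup S))
    (fun s hs => ⟨⟨s, hs⟩, mem_top _, rfl⟩) hx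
  have h1 : (MulAction.stabilizer S w).index ≤ T.card := by
    rw [MulAction.index_stabilizer, ← Set.ncard_coe_finset]
    exact Set.ncard_le_ncard (by rintro _ ⟨s, rfl⟩; exact h s s.2)
  refine normalCore_le (MulAction.stabilizer S w) ((tlt 8 (by norm_num)).dp_le _ (by omega)
    (by omega) (D_anti ?_ _ hl))
  unfold dp
  split_ifs <;> omega

end CfsgLib.DL9
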