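import Mathlib
import Cfsg.Agent.Lib.DL9.Table

/-!
Colourings with three and with two colours whose stabilizers have small derived length.
-/

set_option autoImplicit false
set_option linter.unusedSectionVars false

namespace CfsgLib.DL9

open Subgroup CfsgLib.Base

universe u

theorem ManyK.emb {C C' L T : Type*} [Group L] [MulAction L T] {N : Subgroup L} {k : ℕ}
    (h : ManyK k C T N) (e : C' ↪ C) : ManyK k C' T N := by
  obtain ⟨τ, h1, h2⟩ := h
  exact ⟨τ ∘ e, fun c c' l h => e.injective (h1 _ _ l h), fun c => h2 _⟩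

section

variable {X : Type u} {Ω : Type*} [Group X] [MulAction X Ω] [Fintype Ω] [DecidableEq Ω]
  {N : Subgroup X}

/-- The size of a colour class. -/
noncomputable def sz {C : Type*} (f : Col Ω C) (c : C) : ℕ := {w : Ω | f w = c}.ncard

theorem sz_smul {C : Type*} (x : X) (f : Col Ω C) (c : C) : sz (x • f) c = sz f c :=
  Set.ncard_preimage_of_injective_subset_range (s := {w : Ω | f w = c})
    (MulAction.injective x⁻¹) fun w _ => MulAction.surjective x⁻¹ w

/-- Rotation of the colours. -/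
def rot (f : Col Ω (Fin 3)) (i : Fin 3) : Col Ω (Fin 3) := fun w => f w + i

/-- Bases modulo `N`. -/
def IsB (N : Subgroup X) (B : Finset Ω) : Prop := ∀ x : X, (∀ b ∈ B, x • b = b) → x ∈ N

/-- The colouring with two given classes. -/
def colPQ (P Q : Finset Ω) : Col Ω (Fin 3) := fun w => if w ∈ P then 0 else if w ∈ Q then 1 else 2

theorem colPQ_zero {P Q : Finset Ω} {w : Ω} : colPQ P Q w = 0 ↔ w ∈ P := by
  unfold colPQ
  split_ifs <;> simp [*]

theorem colPQ_one {P Q : Finset Ω} (h : Disjoint P Q) {w : Ω} : colPQ P Q w = 1 ↔ w ∈ Q := by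
  unfold colPQ
  split_ifs with h1 <;> simp [*]
  exact Finset.disjoint_left.1 h h1

theorem sz_colPQ {P Q : Finset Ω} (h : Disjoint P Q) : sz (colPQ P Q) 0 = P.card ∧
    sz (colPQ P Q) 1 = Q.card ∧ sz (colPQ P Q) 2 + P.card + Q.card = Fintype.card Ω := by
  refine ⟨by simp [sz, colPQ_zero], by simp [sz, colPQ_one h], ?_⟩
  rw [add_assoc, ← Finset.card_union_of_disjoint h, ← Finset.card_compl_add_card (P ∪ Q)]
  rw [sz, ← Set.ncard_coe_finset (P ∪ Q)ᶜ]
  congr 2
  ext w
  rw [Set.mem_ofPred_eq, colPQ]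
  split_ifs <;> simp [*]

theorem smul_col {C : Type*} {f g : Col Ω C} {x : X} (h : x • f = g) (w : Ω) : g (x • w) = f w := by
  rw [← h, col_smul, inv_smul_smul]

variable [Finite X] [Group.IsSolvable X]

theorem many_three {P Q : Bool → Finset Ω} (h : ∀ b, Disjoint (P b) (Q b))
    (hP : ∀ b, (P b).card ≤ 2) (hQ : ∀ b, (Q b).card ≤ 2) (hB : ∀ b, IsB N (P b ∪ Q b))
    (h1 : ∀ a b, ¬ ((Q a).card = (P b).card ∧
      Fintype.card Ω = (P a).card + (Q a).card + (Q b).card))
    (h2 : ∀ x : X, x • colPQ (P true) (Q true) ≠ colPQ (P false) (Q false)) :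
    ManyK 1 (Fin 5) (Col Ω (Fin 3)) N := by
  obtain ⟨e⟩ : Nonempty (Fin 5 ↪ Bool × Fin 3) := Function.Embedding.nonempty_of_card_le (by simp)
  refine ManyK.emb ⟨fun c => rot (colPQ (P c.1) (Q c.1)) c.2, ?_, fun c x hx => hB c.1 x ?_⟩ e
  · rintro ⟨a, i⟩ ⟨b, j⟩ x hx
    have h3 : ∀ c, sz (colPQ (P a) (Q a)) (c - i) = sz (colPQ (P b) (Q b)) (c - j) := fun c => by
      have := sz_smul x (rot (colPQ (P a) (Q a)) i) c
      rw [hx] at this
      simpa only [sz, rot, eq_sub_iff_add_eq] using this.symm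
    obtain rfl : i = j := by
      have := sz_colPQ (h a)
      have := sz_colPQ (h b)
      have := h1 a b
      have := h1 b a
      have e0 := h3 0
      have e1 := h3 1
      have e2 := h3 2
      fin_cases i <;> fin_cases j <;> simp at e0 e1 e2 ⊢ <;> omega
    have h4 : x • colPQ (P a) (Q a) = colPQ (P b) (Q b) :=
      funext fun w => add_right_cancel (congrFun hx w)
    cases a <;> cases b
    · rfl
    · exact absurd (inv_smul_eq_iff.2 h4.symm) (h2 _)
    · exact absurd h4 (h2 _)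
    · rfl
  · have h4 : ∀ s ∈ MulAction.stabilizer X (rot (colPQ (P c.1) (Q c.1)) c.2), ∀ w,
        colPQ (P c.1) (Q c.1) (s • w) = colPQ (P c.1) (Q c.1) w := fun s hs w =>
      add_right_cancel (smul_col hs w)
    intro b hb
    rcases Finset.mem_union.1 hb with hb | hb
    · exact D_smul _ (Or.inr ⟨hP _, rfl⟩)
        (fun s hs => colPQ_zero.1 ((h4 s hs b).trans (colPQ_zero.2 hb))) hx
    · exact D_smul _ (Or.inr ⟨hQ _, rfl⟩)
        (fun s hs => (colPQ_one (h _)).1 ((h4 s hs b).trans ((colPQ_one (h _)).2 hb))) hx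

theorem many_three_of_base {B : Finset Ω} (hB : IsB N B) (p q : Bool → ℕ)
    (h0 : ∀ b, p b ≤ 2 ∧ q b ≤ 2 ∧ B.card ≤ p b + q b ∧ p b + q b ≤ Fintype.card Ω)
    (h1 : ∀ a b, ¬ (q a = p b ∧ Fintype.card Ω = p a + q a + q b)) (h2 : p true ≠ p false) :
    ManyK 1 (Fin 5) (Col Ω (Fin 3)) N := by
  have : ∀ b, ∃ P Q : Finset Ω, Disjoint P Q ∧ P.card = p b ∧ Q.card = q b ∧ IsB N (P ∪ Q) :=
    fun b => by
      obtain ⟨B', h3, h4⟩ := Finset.exists_superset_card_eq (h0 b).2.2.1 (h0 b).2.2.2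
      obtain ⟨P, h5, h6⟩ := Finset.exists_subset_card_eq (show p b ≤ B'.card by omega)
      refine ⟨P, B' \ P, Finset.disjoint_sdiff, h6, by rw [Finset.card_sdiff_of_subset h5]; omega,
        fun x hx => hB x fun b hb => hx b ?_⟩
      rw [Finset.union_sdiff_of_subset h5]
      exact h3 hb
  choose P Q h3 h4 h5 h6 using this
  refine many_three h3 (fun b => h4 b ▸ (h0 b).1) (fun b => h5 b ▸ (h0 b).2.1) h6
    (by simpa only [h4, h5] using h1) fun x hx => h2 ?_
  rw [← h4, ← h4, ← (sz_colPQ (h3 _)).1, ← (sz_colPQ (h3 _)).1, ← hx, sz_smul]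

theorem many_three_of_many (h : Many (Fin 5) (Fin 4 → Ω) N) (hn : 7 ≤ Fintype.card Ω) :
    ManyK 1 (Fin 5) (Col Ω (Fin 3)) N := by
  obtain ⟨τ, h1, h2⟩ := h
  have hB : ∀ c, IsB N (Finset.univ.image (τ c)) := fun c x hx =>
    h2 c x (funext fun i => hx _ (Finset.mem_image_of_mem _ (Finset.mem_univ i)))
  by_cases h3 : ∃ c, (Finset.univ.image (τ c)).card ≤ 3
  · obtain ⟨c, hc⟩ := h3
    exact many_three_of_base (hB c) (fun b => cond b 1 2) (fun b => cond b 2 1)
      (fun b => by cases b <;> simp <;> omega)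
      (fun a b => by cases a <;> cases b <;> simp <;> omega) (by simp)
  have h4 : ∀ c, Function.Injective (τ c) := fun c => by
    have := Finset.card_image_le (s := Finset.univ) (f := τ c)
    have := not_exists.1 h3 c
    simpa using Finset.card_image_iff.1 (show (Finset.univ.image (τ c)).card = Finset.univ.card by
      simp only [Finset.card_univ, Fintype.card_fin] at *; omega)
  let P : Fin 5 → Finset Ω := fun c => {τ c 0, τ c 1}
  let Q : Fin 5 → Finset Ω := fun c => {τ c 2, τ c 3}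
  have h5 : ∀ c, Disjoint (P c) (Q c) := fun c => by simp [P, Q, (h4 c).eq_iff]
  have h6 : ∀ c, (P c).card = 2 := fun c => Finset.card_pair (by simp [(h4 c).eq_iff])
  have h7 : ∀ c, (Q c).card = 2 := fun c => Finset.card_pair (by simp [(h4 c).eq_iff])
  obtain ⟨c, hc⟩ : ∃ c, ∀ x : X, x • colPQ (P c) (Q c) ≠ colPQ (P 0) (Q 0) := by
    by_contra! hc
    choose x hx using hc
    obtain ⟨c, c', h8, h9⟩ := Fintype.exists_ne_map_eq_of_card_lt
      (fun c => (decide (x c • τ c 0 = τ 0 0), decide (x c • τ c 2 = τ 0 2))) (by simp)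
    have k1 : ∀ c, ∀ w ∈ P c, x c • w = τ 0 0 ∨ x c • w = τ 0 1 := fun c w hw => by
      simpa [P] using colPQ_zero.1 ((smul_col (hx c) w).trans (colPQ_zero.2 hw))
    have k2 : ∀ c, ∀ w ∈ Q c, x c • w = τ 0 2 ∨ x c • w = τ 0 3 := fun c w hw => by
      simpa [Q] using (colPQ_one (h5 _)).1 ((smul_col (hx c) w).trans ((colPQ_one (h5 _)).2 hw))
    have k3 : ∀ c i j, x c • τ c i = x c • τ c j → i = j := fun c i j h =>
      h4 c (MulAction.injective _ h)
    have k4 : ∀ a b y₀ y₁ z₀ z₁ : Ω, y₀ = a ∨ y₀ = b → y₁ = a ∨ y₁ = b → z₀ = a ∨ z₀ = b →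
        z₁ = a ∨ z₁ = b → y₀ ≠ y₁ → z₀ ≠ z₁ → (y₀ = a ↔ z₀ = a) → y₀ = z₀ ∧ y₁ = z₁ := by grind
    simp only [Prod.mk.injEq, decide_eq_decide] at h9
    obtain ⟨e0, e1⟩ := k4 _ _ _ _ _ _ (k1 c (τ c 0) (by simp [P])) (k1 c (τ c 1) (by simp [P]))
      (k1 c' (τ c' 0) (by simp [P])) (k1 c' (τ c' 1) (by simp [P]))
      (fun h => absurd (k3 _ _ _ h) (by decide)) (fun h => absurd (k3 _ _ _ h) (by decide)) h9.1
    obtain ⟨e2, e3⟩ := k4 _ _ _ _ _ _ (k2 c (τ c 2) (by simp [Q])) (k2 c (τ c 3) (by simp [Q]))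
      (k2 c' (τ c' 2) (by simp [Q])) (k2 c' (τ c' 3) (by simp [Q]))
      (fun h => absurd (k3 _ _ _ h) (by decide)) (fun h => absurd (k3 _ _ _ h) (by decide)) h9.2
    refine h8 (h1 c c' ((x c')⁻¹ * x c) (funext fun i => ?_))
    rw [Pi.smul_apply, mul_smul, inv_smul_eq_iff]
    fin_cases i <;> assumption
  refine many_three (P := fun b => P (cond b c 0)) (Q := fun b => Q (cond b c 0)) (fun _ => h5 _)
    (fun _ => (h6 _).le) (fun _ => (h7 _).le) (fun b x hx => hB (cond b c 0) x fun w hw => hx w ?_)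
    (fun a b => by simp only [h6, h7]; omega) hc
  obtain ⟨i, -, rfl⟩ := Finset.mem_image.1 hw
  fin_cases i <;> simp [P, Q]

theorem many_two {B : Finset Ω} (hB : IsB N B) (hN : IsB N (Finset.univ : Finset Ω))
    (h4 : B.card ≤ 4) (h2 : 2 ≤ Fintype.card Ω) : ManyK 3 (Fin 3) (Col Ω (Fin 2)) N := by
  obtain ⟨j, S, h5, h6⟩ : ∃ (j : ℕ) (S : Fin 3 → Finset Ω), (∀ i, (S i).card = j + i) ∧
      (Fintype.card Ω ≤ 7 ∨ (j = 4 ∧ ∀ i, B ⊆ S i)) := by
    by_cases h : Fintype.card Ω ≤ 7
    · choose S h5 h6 using fun i : Fin 3 => Finset.exists_subset_card_eq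
        (show 0 + (i : ℕ) ≤ (Finset.univ : Finset Ω).card by rw [Finset.card_univ]; omega)
      exact ⟨0, S, h6, Or.inl h⟩
    · choose S h5 h6 using fun i : Fin 3 => Finset.exists_superset_card_eq
        (show B.card ≤ 4 + (i : ℕ) by omega) (by omega)
      exact ⟨4, S, h6, Or.inr ⟨rfl, h5⟩⟩
  let f : Fin 3 → Col Ω (Fin 2) := fun i w => if w ∈ S i then 0 else 1
  have hf : ∀ i w, f i w = 0 ↔ w ∈ S i := fun i w => by simp [f]
  refine ⟨f, fun a b x hx => ?_, fun i x hx => ?_⟩
  · have := sz_smul x (f a) 0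
    rw [hx] at this
    simp only [sz, hf, Finset.setOfPred_mem, Set.ncard_coe_finset, h5] at this
    omega
  · rcases h6 with h6 | ⟨rfl, h6⟩
    · exact hN x fun b _ => D_smul Finset.univ (Or.inl ⟨h6, rfl⟩) (fun _ _ => Finset.mem_univ _) hx
    · exact hB x fun b hb => D_smul (S i) (Or.inl ⟨by rw [h5]; omega, rfl⟩)
        (fun s hs => (hf _ _).1 ((smul_col hs b).trans ((hf _ _).2 (h6 i hb)))) hx

end

section

variable {X : Type u} [Group X] [Finite X] [Group.IsSolvable X]

theorem coatom_many {H : Subgroup X} (hH : IsCoatom H) :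
    ManyK 1 (Fin 5) (Col (X ⧸ H) (Fin 3)) H.normalCore ∧
      ManyK 3 (Fin 3) (Col (X ⧸ H) (Fin 2)) H.normalCore := by
  classical
  obtain ⟨V, _, _, _, e, μ, p, k, hp, hk, hV, he⟩ := exists_aff hH
  have := Fintype.ofFinite (X ⧸ H)
  have h1 : Nat.card V = Fintype.card (X ⧸ H) := by
    rw [Nat.card_congr e, Nat.card_eq_fintype_card]
  have h2 : 2 ≤ Fintype.card (X ⧸ H) := by
    rw [← Nat.card_eq_fintype_card]
    exact one_lt_index_of_ne_top hH.1
  have : Nontrivial V := Finite.one_lt_card_iff_nontrivial.1 (by omega)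
  have hN : IsB H.normalCore (Finset.univ : Finset (X ⧸ H)) := fun x hx =>
    mem_core.2 fun q => hx q (Finset.mem_univ q)
  have h3 : ∀ x : X, x • e 0 = e 0 → ∀ v, x • e v = e (x • v) := fun x h v => by
    rw [he, smul_zero, add_zero] at h
    rw [he, e.injective h, zero_add]
  have h4 : ∀ x : X, x • e 0 = e 0 → x ∈ kerA X V → x ∈ H.normalCore := fun x h hx =>
    mem_core.2 fun q => by
      obtain ⟨v, rfl⟩ := e.surjective q
      rw [h3 x h, mem_kerA.1 hx]
  have h5 : Many (Fin 5) (Fin 4 → X ⧸ H) H.normalCore := by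
    obtain ⟨τ, h5, h6⟩ := hV.cr.hasBase_three.many_five
    have : ∀ (x : X) (v w : Fin 3 → V), x • (e ∘ Fin.cons 0 v : Fin 4 → X ⧸ H) = e ∘ Fin.cons 0 w →
        x • e 0 = e 0 ∧ x • v = w := fun x v w h =>
      ⟨congrFun h 0, funext fun i => e.injective ((h3 x (congrFun h 0) _).symm.trans
        (congrFun h i.succ))⟩
    exact ⟨fun c => e ∘ Fin.cons 0 (τ c), fun c c' x h => h5 c c' x (this x _ _ h).2,
      fun c x h => h4 x (this x _ _ h).1 (h6 c x (this x _ _ h).2)⟩
  refine ⟨?_, ?_⟩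
  · obtain h | h | h | h | h | h : Fintype.card (X ⧸ H) = 2 ∨ Fintype.card (X ⧸ H) = 3 ∨
        Fintype.card (X ⧸ H) = 4 ∨ Fintype.card (X ⧸ H) = 5 ∨ Fintype.card (X ⧸ H) = 6 ∨
        7 ≤ Fintype.card (X ⧸ H) := by omega
    · exact many_three_of_base hN (fun b => cond b 2 1) (fun b => cond b 0 1)
        (fun b => by cases b <;> simp [h]) (fun a b => by cases a <;> cases b <;> simp [h])
        (by simp)
    · exact many_three_of_base hN (fun b => cond b 1 2) (fun b => cond b 2 1)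
        (fun b => by cases b <;> simp [h]) (fun a b => by cases a <;> cases b <;> simp [h])
        (by simp)
    · refine many_three_of_base (B := Finset.univ.erase (e 0)) (fun x hx => hN x fun q _ => ?_)
        (fun b => cond b 2 1) (fun _ => 2) (fun b => by cases b <;> simp [h])
        (fun a b => by cases a <;> cases b <;> simp [h]) (by simp)
      by_contra h6
      exact h6 (MulAction.injective x (hx _ (Finset.mem_erase.2 ⟨fun h7 => h6 (h7.trans (by
        by_contra h8
        exact h6 (hx q (Finset.mem_erase.2 ⟨Ne.symm h8, Finset.mem_univ _⟩)))),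
        Finset.mem_univ _⟩)))
    · obtain ⟨v, hv⟩ := exists_ne (0 : V)
      have := Fact.mk Nat.prime_five
      refine many_three_of_base (B := {e 0, e v}) (fun x hx => h4 x (hx _ (by simp))
        (mem_kerA.2 fun u => ?_)) (fun b => cond b 2 1) (fun b => cond b 2 1)
        (fun b => by cases b <;> simp [h, Finset.card_le_two.trans])
        (fun a b => by cases a <;> cases b <;> simp [h]) (by simp)
      obtain ⟨i, rfl⟩ := mem_zmultiples_of_prime_card (h1.trans h) hv (g' := u)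
      rw [smul_comm, e.injective ((h3 x (hx _ (by simp)) v).symm.trans (hx _ (by simp)))]
    · have h6 : p ^ k = 6 := hk.symm.trans (h1.trans h)
      have h7 := (Nat.prime_dvd_prime_iff_eq Nat.prime_two hp).1
        (Nat.prime_two.dvd_of_dvd_pow (h6 ▸ (by norm_num : 2 ∣ 6)))
      have h8 := (Nat.prime_dvd_prime_iff_eq Nat.prime_three hp).1
        (Nat.prime_three.dvd_of_dvd_pow (h6 ▸ (by norm_num : 3 ∣ 6)))
      omega
    · exact many_three_of_many h5 h
  · obtain ⟨τ, -, h6⟩ := h5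
    exact many_two (B := Finset.univ.image (τ 0)) (fun x hx => h6 0 x (funext fun i =>
      hx _ (Finset.mem_image_of_mem _ (Finset.mem_univ i)))) hN
      (Finset.card_image_le.trans (by simp)) h2

theorem distK_three (H : Subgroup X) : DistK 1 (Fin 3) H :=
  distK_step (a := 0) (fun L => distK_zero (dist_five L)) (fun _ _ h => (coatom_many h).1) H

theorem distK_two (H : Subgroup X) : DistK 4 (Fin 2) H :=
  distK_step (a := 1) distK_three (fun _ _ h => (coatom_many h).2) H

end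

end CfsgLib.DL9
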